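import Mathlib

/-!
# S5719, the graph automorphism of `PSL_n`, `PSU_n`, `n` odd: the inequalities (helper5)

`q_le_of` etc. : elementary estimates, no group theory.
-/

set_option autoImplicit false

namespace Cfsg.Agent.H5.IFO

theorem four_pow_mul {q k : ℕ} (hq : 2 ≤ q) (hk : 2 ≤ k) : 3 * q ^ k ≤ 4 * (q ^ k - 1) := by
  have h1 : 4 ≤ q ^ k := by
    calc 4 = 2 ^ 2 := by norm_num
      _ ≤ q ^ 2 := Nat.pow_le_pow_left hq 2
      _ ≤ q ^ k := Nat.pow_le_pow_right (by omega) hk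
  omega

/-- the factors of `|O⁺_{2m}(q)|` -/
theorem prod_even {q : ℕ} (hq : 2 ≤ q) (k : ℕ) :
    3 ^ k * q ^ (k * (k + 1)) ≤ 4 ^ k * ∏ i ∈ Finset.range k, (q ^ (2 * (i + 1)) - 1) := by
  induction k with
  | zero => simp
  | succ k ih =>
    rw [Finset.prod_range_succ]
    have h1 := four_pow_mul hq (show 2 ≤ 2 * (k + 1) by omega)
    calc 3 ^ (k + 1) * q ^ ((k + 1) * (k + 1 + 1))
        = (3 ^ k * q ^ (k * (k + 1))) * (3 * q ^ (2 * (k + 1))) := by ring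
      _ ≤ (4 ^ k * ∏ i ∈ Finset.range k, (q ^ (2 * (i + 1)) - 1)) * (4 * (q ^ (2 * (k + 1)) - 1)) :=
          Nat.mul_le_mul ih h1
      _ = _ := by ring

theorem card_plus_le {q m : ℕ} (hq : 2 ≤ q) (hm : 2 ≤ m) :
    2 * 3 ^ m * q ^ (2 * m ^ 2 - m) ≤
      4 ^ m * (2 * q ^ (m * (m - 1)) * (q ^ m - 1) * ∏ i ∈ Finset.range (m - 1), (q ^ (2 * (i + 1)) - 1)) := by
  obtain ⟨k, rfl⟩ := Nat.exists_eq_add_of_le' (show 1 ≤ m by omega)
  rw [Nat.add_sub_cancel]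
  have h1 := four_pow_mul hq hm
  have h2 := prod_even hq k
  have h3 : 2 * (k + 1) ^ 2 - (k + 1) = (k + 1) * k + (k + 1) + k * (k + 1) := by
    have : 2 * (k + 1) ^ 2 = ((k + 1) * k + (k + 1) + k * (k + 1)) + (k + 1) := by ring
    omega
  rw [h3]
  calc 2 * 3 ^ (k + 1) * q ^ ((k + 1) * k + (k + 1) + k * (k + 1))
      = 2 * q ^ ((k + 1) * k) * ((3 * q ^ (k + 1)) * (3 ^ k * q ^ (k * (k + 1)))) := by ring
    _ ≤ 2 * q ^ ((k + 1) * k) * ((4 * (q ^ (k + 1) - 1)) * (4 ^ k * ∏ i ∈ Finset.range k, (q ^ (2 * (i + 1)) - 1))) :=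
        Nat.mul_le_mul_left _ (Nat.mul_le_mul h1 h2)
    _ = _ := by ring

/-- `(q-1) ∏ (q^i - 1)` -/
theorem prod_psl {q : ℕ} (k : ℕ) :
    (q - 1) * ∏ i ∈ Finset.range k, (q ^ (i + 2) - 1) ≤ q ^ ((k + 1) * (k + 2) / 2) := by
  induction k with
  | zero => simp
  | succ k ih =>
    rw [Finset.prod_range_succ, ← mul_assoc]
    calc _ ≤ q ^ ((k + 1) * (k + 2) / 2) * q ^ (k + 2) := Nat.mul_le_mul ih (Nat.sub_le _ _)
      _ = _ := by
        rw [← pow_add]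
        congr 1
        have : (k + 1 + 1) * (k + 1 + 2) = (k + 1) * (k + 2) + (k + 2) * 2 := by ring
        rw [this, Nat.add_mul_div_right _ _ (by norm_num)]

/-- `(q+1) ∏ (q^i - (-1)^i)` -/
theorem prod_psu {q : ℕ} (hq : 2 ≤ q) (k : ℕ) :
    (q + 1) * ∏ i ∈ Finset.range (2 * k + 1), (if Even i then q ^ (i + 2) - 1 else q ^ (i + 2) + 1) ≤
      2 ^ (k + 1) * q ^ ((k + 1) * (2 * k + 3)) := by
  have key : ∀ j : ℕ, 1 ≤ j → (q ^ j + 1) * (q ^ (j + 1) - 1) ≤ 2 * q ^ (2 * j + 1) := by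
    intro j hj
    have h1 : 1 ≤ q ^ j := Nat.one_le_pow _ _ (by omega)
    calc (q ^ j + 1) * (q ^ (j + 1) - 1) ≤ (2 * q ^ j) * q ^ (j + 1) := Nat.mul_le_mul (by omega) (Nat.sub_le _ _)
      _ = _ := by ring
  induction k with
  | zero =>
    have := key 1 (le_refl 1)
    simpa using this
  | succ k ih =>
    rw [show 2 * (k + 1) + 1 = 2 * k + 1 + 1 + 1 by ring, Finset.prod_range_succ, Finset.prod_range_succ]
    have e1 : ¬ Even (2 * k + 1) := by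
      rw [Nat.not_even_iff_odd]; exact ⟨k, rfl⟩
    have e2 : Even (2 * k + 1 + 1) := ⟨k + 1, by ring⟩
    rw [if_neg e1, if_pos e2]
    have h1 := key (2 * k + 1 + 2) (by omega)
    calc _ = ((q + 1) * ∏ i ∈ Finset.range (2 * k + 1), (if Even i then q ^ (i + 2) - 1 else q ^ (i + 2) + 1)) *
          ((q ^ (2 * k + 1 + 2) + 1) * (q ^ (2 * k + 1 + 2 + 1) - 1)) := by ring
      _ ≤ (2 ^ (k + 1) * q ^ ((k + 1) * (2 * k + 3))) * (2 * q ^ (2 * (2 * k + 1 + 2) + 1)) := Nat.mul_le_mul ih h1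
      _ = _ := by ring

/-- `m = 1` -/
theorem fin_one {q e f N : ℕ} (hq : 3 ≤ q) (he : e = 1 ∨ e = 3 ∧ 4 ≤ q) (hf : f ^ 6 < N)
    (hP : q * (q ^ 2 - 1) ≤ e * (3 * f)) (hN : N ≤ (q + 1) * (q ^ 3 * (q ^ 2 - 1))) : False := by
  obtain ⟨k, rfl⟩ := Nat.exists_eq_add_of_le' hq
  have e1 : (k + 3) ^ 2 - 1 = (k + 2) * (k + 4) := by
    have : (k + 3) ^ 2 = (k + 2) * (k + 4) + 1 := by ring
    omega
  rw [e1] at hP hN
  have h1 : ((k + 3) * ((k + 2) * (k + 4))) ^ 6 ≤ (e * (3 * f)) ^ 6 := Nat.pow_le_pow_left hP 6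
  have h2 : (e * (3 * f)) ^ 6 = (3 * e) ^ 6 * f ^ 6 := by ring
  have h3 : (3 * e) ^ 6 * f ^ 6 < (3 * e) ^ 6 * ((k + 4) * ((k + 3) ^ 3 * ((k + 2) * (k + 4)))) :=
    Nat.mul_lt_mul_of_pos_left (hf.trans_le hN) (by rcases he with h | h <;> [subst h; (rw [h.1])] <;> norm_num)
  have h4 : ((k + 3) ^ 3 * (k + 4) * ((k + 2) * (k + 4))) * ((k + 3) ^ 3 * (k + 2) * ((k + 2) * (k + 4)) ^ 4) <
      ((k + 3) ^ 3 * (k + 4) * ((k + 2) * (k + 4))) * (3 * e) ^ 6 := by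
    calc _ = ((k + 3) * ((k + 2) * (k + 4))) ^ 6 := by ring
      _ < (3 * e) ^ 6 * ((k + 4) * ((k + 3) ^ 3 * ((k + 2) * (k + 4)))) := by rw [← h2] at h3; omega
      _ = _ := by ring
  have h5 := Nat.lt_of_mul_lt_mul_left h4
  rcases he with h | ⟨h, h'⟩
  · subst h
    have : 3 ^ 3 * 2 * (2 * 4) ^ 4 ≤ (k + 3) ^ 3 * (k + 2) * ((k + 2) * (k + 4)) ^ 4 := by gcongr <;> omega
    norm_num at this h5
    omega
  · subst h
    obtain ⟨j, rfl⟩ := Nat.exists_eq_add_of_le' (show 1 ≤ k by omega)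
    have : 4 ^ 3 * 3 * (3 * 5) ^ 4 ≤ (j + 1 + 3) ^ 3 * (j + 1 + 2) * ((j + 1 + 2) * (j + 1 + 4)) ^ 4 := by gcongr <;> omega
    norm_num at this h5
    omega

/-- `m ≥ 2` -/
theorem fin_two {q e f N P m : ℕ} (hq : 2 ≤ q) (hm : 2 ≤ m) (hen : e ∣ 2 * m + 1) (he : m = 2 → e ≠ 1 → 4 ≤ q) (hf : f ^ 6 < N)
    (hP : P ≤ e * ((2 * m + 1) * f)) (hN : N ≤ 2 ^ m * q ^ (2 * (m * (2 * m + 1))))
    (hP2 : 2 * 3 ^ m * q ^ (2 * m ^ 2 - m) ≤ 4 ^ m * P) : False := by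
  have he0 : 0 < e := Nat.pos_of_dvd_of_pos hen (by omega)
  have h1 : (2 * 3 ^ m * q ^ (2 * m ^ 2 - m)) ^ 6 ≤ (4 ^ m * (e * ((2 * m + 1) * f))) ^ 6 :=
    Nat.pow_le_pow_left (hP2.trans (Nat.mul_le_mul_left _ hP)) 6
  have h2 : (4 ^ m * (e * ((2 * m + 1) * f))) ^ 6 = (4 ^ m * (e * (2 * m + 1))) ^ 6 * f ^ 6 := by ring
  have h3 : (4 ^ m * (e * (2 * m + 1))) ^ 6 * f ^ 6 <
      (4 ^ m * (e * (2 * m + 1))) ^ 6 * (2 ^ m * q ^ (2 * (m * (2 * m + 1)))) :=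
    Nat.mul_lt_mul_of_pos_left (hf.trans_le hN) (by positivity)
  have hmm : 2 * m ≤ m ^ 2 := by nlinarith
  have e0 : (2 * m ^ 2 - m) * 6 = 2 * (m * (2 * m + 1)) + 8 * (m ^ 2 - m) := by
    have a1 : m * (2 * m + 1) = 2 * m ^ 2 + m := by ring
    omega
  have h4 : q ^ (2 * (m * (2 * m + 1))) * (64 * 3 ^ (6 * m) * q ^ (8 * (m ^ 2 - m))) <
      q ^ (2 * (m * (2 * m + 1))) * (2 ^ m * (4 ^ m * (e * (2 * m + 1))) ^ 6) := by
    calc _ = (2 * 3 ^ m * q ^ (2 * m ^ 2 - m)) ^ 6 := by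
          rw [mul_pow, mul_pow, ← pow_mul, ← pow_mul, e0, pow_add]
          ring
      _ < _ := by rw [← h2] at h3; exact h1.trans_lt h3
      _ = _ := by ring
  have h5 := Nat.lt_of_mul_lt_mul_left h4
  rcases Nat.lt_or_ge m 3 with hm3 | hm3
  · obtain rfl : m = 2 := by omega
    have h6 : e = 1 ∨ e = 5 := (Nat.dvd_prime (by norm_num)).1 (by simpa using hen)
    rcases h6 with rfl | rfl
    · have : 64 * 3 ^ (6 * 2) * 2 ^ (8 * (2 ^ 2 - 2)) ≤ 64 * 3 ^ (6 * 2) * q ^ (8 * (2 ^ 2 - 2)) :=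
        Nat.mul_le_mul_left _ (Nat.pow_le_pow_left hq _)
      norm_num at this h5
      omega
    · have h4 := he rfl (by norm_num)
      have : 64 * 3 ^ (6 * 2) * 4 ^ (8 * (2 ^ 2 - 2)) ≤ 64 * 3 ^ (6 * 2) * q ^ (8 * (2 ^ 2 - 2)) :=
        Nat.mul_le_mul_left _ (Nat.pow_le_pow_left h4 _)
      norm_num at this h5
      omega
  · have h6 : 2 * m + 1 ≤ 2 ^ m := by
      clear * - hm3
      induction m, hm3 using Nat.le_induction with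
      | base => norm_num
      | succ k hk ih =>
        rw [pow_succ]
        omega
    have h7 : e ≤ 2 ^ m := (Nat.le_of_dvd (by omega) hen).trans h6
    have h8 : 2 ^ m * (4 ^ m * (e * (2 * m + 1))) ^ 6 ≤ 2 ^ (25 * m) := by
      calc _ ≤ 2 ^ m * (4 ^ m * (2 ^ m * 2 ^ m)) ^ 6 :=
            Nat.mul_le_mul_left _ (Nat.pow_le_pow_left (Nat.mul_le_mul_left _ (Nat.mul_le_mul h7 h6)) 6)
        _ = _ := by
          rw [show (4 : ℕ) = 2 ^ 2 by norm_num, ← pow_mul, ← pow_add, ← pow_add, ← pow_mul, ← pow_add]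
          congr 1
          ring
    have h9 : 2 ^ (25 * m) ≤ 64 * 3 ^ (6 * m) * q ^ (8 * (m ^ 2 - m)) := by
      calc 2 ^ (25 * m) ≤ 2 ^ (6 + 9 * m + 8 * (m ^ 2 - m)) := by
            apply Nat.pow_le_pow_right (by norm_num)
            have a1 : 3 * m ≤ m ^ 2 := by nlinarith
            omega
        _ = 64 * (2 ^ 9) ^ m * 2 ^ (8 * (m ^ 2 - m)) := by
            rw [pow_add, pow_add, ← pow_mul]
            norm_num
        _ ≤ 64 * (3 ^ 6) ^ m * q ^ (8 * (m ^ 2 - m)) :=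
            Nat.mul_le_mul (Nat.mul_le_mul_left _ (Nat.pow_le_pow_left (by norm_num) _)) (Nat.pow_le_pow_left hq _)
        _ = _ := by rw [← pow_mul]
    omega

end Cfsg.Agent.H5.IFO
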