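import Cfsg.Agent.H5.IFO.NumBase
import Cfsg.Agent.H242.StrP.FCUni
import Cfsg.Agent.H277.ClsPsl
import Cfsg.Agent.H277.ClsPsu
import Cfsg.Agent.S2699
import Cfsg.Agent.S2706

/-!
# S5719, the graph automorphism of `PSL_n`, `PSU_n`, `n` odd (helper5)

`num_graph`, `num_U` : the numerical contradictions for a point stabiliser of odd order containing a Singer cycle.
-/

set_option autoImplicit false

namespace Cfsg.Agent.H5.IFO

open Subgroup Cfsg Matrix Cfsg.Agent.H209.Fxy Cfsg.Agent.H163.PG Cfsg.Agent.H242.StrP.FC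

universe u

theorem center_bot_of_simple {T : Type*} [Group T] [hs : IsSimpleGroup T] (hn : ¬ IsMulCommutative T) : center T = ⊥ := by
  rcases (inferInstance : (center T).Normal).eq_bot_or_eq_top with h | h
  · exact h
  · exfalso
    apply hn
    refine ⟨⟨fun a b => ?_⟩⟩
    have hb : b ∈ center T := by rw [h]; exact mem_top _
    exact mem_center_iff.1 hb a

/-- the common end -/
theorem fin_all {n m q e f N P : ℕ} (hn : 3 ≤ n) (hnm : n = 2 * m + 1) (hq : 2 ≤ q) (he : e ∣ n) (he4 : n ≤ 5 → e ≠ 1 → 4 ≤ q ∨ n = 3 ∧ q = 2)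
    (hbig : 729 < N) (hf : f ^ 6 < N) (hP : P ≤ e * (n * f))
    (hN1 : n = 3 → N ≤ (q + 1) * (q ^ 3 * (q ^ 2 - 1))) (hN : N ≤ 2 ^ m * q ^ (2 * (m * (2 * m + 1))))
    (hP1 : n = 3 → q * (q ^ 2 - 1) ≤ P) (hP2 : 2 ≤ m → 2 * 3 ^ m * q ^ (2 * m ^ 2 - m) ≤ 4 ^ m * P) : False := by
  rcases Nat.lt_or_ge m 2 with hm | hm
  · obtain rfl : m = 1 := by omega
    obtain rfl : n = 3 := by omega
    have h1 := hN1 rfl
    have hq3 : 3 ≤ q := by
      by_contra hcon
      obtain rfl : q = 2 := by omega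
      norm_num at h1
      omega
    refine fin_one hq3 ?_ hf ((hP1 rfl).trans hP) h1
    by_cases h2 : e = 1
    · exact Or.inl h2
    · refine Or.inr ⟨((Nat.dvd_prime Nat.prime_three).1 he).resolve_left h2, ?_⟩
      rcases he4 (by omega) h2 with h3 | h3
      · exact h3
      · omega
  · rw [hnm] at hP he
    refine fin_two hq hm he ?_ hf hP hN (hP2 hm)
    intro hm2 h
    rcases he4 (by omega) h with h1 | h1
    · exact h1
    · omega

/-- bounds of `PGO` -/
theorem pgo_bounds {F : Type u} [Field F] [Fintype F] {q : ℕ} (hF : Fintype.card F = q) {n m : ℕ} (hnm : n = 2 * m + 1) :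
    (n = 3 → q * (q ^ 2 - 1) ≤ Nat.card (PGO F (quadFormOdd m F))) ∧
    (2 ≤ m → 2 * 3 ^ m * q ^ (2 * m ^ 2 - m) ≤ 4 ^ m * Nat.card (PGO F (quadFormOdd m F))) := by
  have hq : 2 ≤ q := hF ▸ Fintype.one_lt_card
  constructor
  · intro h
    obtain rfl : m = 1 := by omega
    exact card_pgo_one hF
  · intro hm
    refine (card_plus_le hq hm).trans (Nat.mul_le_mul_left _ ?_)
    rw [← S0287.result hF m (by omega)]
    exact card_pgo

theorem num_graph {F : Type*} [Field F] [Fintype F] {n : ℕ} (hn : 3 ≤ n) (hodd : Odd n)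
    {A : Subgroup (ProjectiveSpecialLinearGroup (Fin n) F)} {Γ : Subgroup (MulAut (ProjectiveSpecialLinearGroup (Fin n) F))}
    (h : IF A Γ) (_hA : Odd (Nat.card A)) {σ : MulAut (ProjectiveSpecialLinearGroup (Fin n) F)} (hσ : σ ∈ Γ)
    (ho : orderOf σ = 2) (hcl : IsGraphAutClassPSL σ)
    (hlow : Fintype.card F ^ n - 1 ≤ (Fintype.card F - 1) * n.gcd (Fintype.card F - 1) * Nat.card A)
    (hup : Nat.card {a // a ∈ A ∧ σ a = a} ≤ n) : False := by
  classical
  have hfin : Finite (ProjectiveSpecialLinearGroup (Fin n) F) := Quotient.finite _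
  obtain ⟨m, hnm⟩ := hodd
  obtain ⟨p, -, k, hp, hpk⟩ := FiniteField.card' F
  have : Fact p.Prime := ⟨hp⟩
  set q := Fintype.card F with hqdef
  have hq : 2 ≤ q := Fintype.one_lt_card
  have hs : IsSimpleGroup (ProjectiveSpecialLinearGroup (Fin n) F) := simple_psl (by omega) (fun h => by omega)
  have hZ : center (ProjectiveSpecialLinearGroup (Fin n) F) = ⊥ := center_bot_of_simple (not_comm_psl hs)
  obtain ⟨e1⟩ := (S2699.result hpk k.pos hn hnm σ σ hcl ho hcl ho).1
  obtain ⟨hc, hf⟩ := cent_le hZ h hσ ho inn_le_psl (card_inndiag (F := F) (show 2 ≤ n by omega)) hup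
  rw [Nat.card_congr e1.toEquiv] at hc
  obtain ⟨b1, b2⟩ := pgo_bounds (F := F) hqdef.symm hnm
  -- the index
  have hcard := H277.ClsPsl.card_psl (F := F) hqdef.symm (show 2 ≤ n by omega)
  rw [← A.card_mul_index, show n - 1 = n - 2 + 1 by omega, Finset.prod_range_succ, show n - 2 + 2 = n by omega] at hcard
  have hidx : A.index ≤ (q - 1) * (q ^ (n * (n - 1) / 2) * ∏ i ∈ Finset.range (n - 2), (q ^ (i + 2) - 1)) := by
    have hpos : 0 < q ^ n - 1 := by
      have : 2 ^ 1 ≤ q ^ n := (Nat.pow_le_pow_left hq 1).trans (Nat.pow_le_pow_right (by omega) (by omega))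
      omega
    apply Nat.le_of_mul_le_mul_left _ hpos
    calc (q ^ n - 1) * A.index ≤ ((q - 1) * n.gcd (q - 1) * Nat.card A) * A.index := Nat.mul_le_mul_right _ hlow
      _ = (q - 1) * (n.gcd (q - 1) * (Nat.card A * A.index)) := by ring
      _ = _ := by rw [show n * (n - 2 + 1) = n * (n - 1) by rw [show n - 2 + 1 = n - 1 by omega]] at hcard; rw [hcard]; ring
  refine fin_all hn hnm hq (Nat.gcd_dvd_left n (q - 1)) ?_ h.big hf hc ?_ ?_ b1 b2
  · intro _ he
    left
    by_contra hcon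
    apply he
    have h4 : q = 2 ∨ q = 3 := by omega
    rcases h4 with h4 | h4
    · rw [h4]; simp
    · rw [h4, hnm]
      have : Nat.Coprime (2 * m + 1) 2 := by
        rw [Nat.coprime_two_right]
        exact ⟨m, rfl⟩
      exact this
  · intro h3
    subst h3
    norm_num at hidx
    exact hidx.trans (Nat.mul_le_mul_right _ (by omega))
  · refine hidx.trans ?_
    have h1 := prod_psl (q := q) (n - 2)
    have h2 : (n - 2 + 1) * (n - 2 + 2) / 2 = m * (2 * m + 1) := by
      rw [show n - 2 + 1 = 2 * m by omega, show n - 2 + 2 = 2 * m + 1 by omega, mul_assoc, Nat.mul_div_cancel_left _ two_pos]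
    have h3 : n * (n - 1) / 2 = m * (2 * m + 1) := by
      rw [show n - 1 = 2 * m by omega, hnm, show (2 * m + 1) * (2 * m) = 2 * (m * (2 * m + 1)) by ring,
        Nat.mul_div_cancel_left _ two_pos]
    rw [h2] at h1
    rw [h3]
    calc _ = q ^ (m * (2 * m + 1)) * ((q - 1) * ∏ i ∈ Finset.range (n - 2), (q ^ (i + 2) - 1)) := by ring
      _ ≤ q ^ (m * (2 * m + 1)) * q ^ (m * (2 * m + 1)) := Nat.mul_le_mul_left _ h1
      _ = 1 * q ^ (2 * (m * (2 * m + 1))) := by rw [two_mul (m * (2 * m + 1)), pow_add, one_mul]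
      _ ≤ _ := Nat.mul_le_mul_right _ Nat.one_le_two_pow

theorem num_U {F : Type*} [Field F] [Fintype F] {n q : ℕ} (hF : Fintype.card F = q ^ 2) (hn : 3 ≤ n) (hodd : Odd n)
    {A : Subgroup (PSU n F q)} {Γ : Subgroup (MulAut (PSU n F q))}
    (h : IF A Γ) (_hA : Odd (Nat.card A)) {σ : MulAut (PSU n F q)} (hσ : σ ∈ Γ)
    (ho : orderOf σ = 2) (hcl : IsGraphAutClassPSU σ)
    (hlow : q ^ n + 1 ≤ (q + 1) * n.gcd (q + 1) * Nat.card A)
    (hup : Nat.card {a // a ∈ A ∧ σ a = a} ≤ n) : False := by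
  classical
  have hfin : Finite (PSU n F q) := finite_psu
  obtain ⟨m, hnm⟩ := hodd
  obtain ⟨p, -, k, hp, hpk⟩ := FiniteField.card' F
  have : Fact p.Prime := ⟨hp⟩
  have hq : 2 ≤ q := by
    by_contra hcon
    have h1 : 1 < q ^ 2 := hF ▸ Fintype.one_lt_card
    have h2 : q ^ 2 ≤ 1 ^ 2 := Nat.pow_le_pow_left (by omega) 2
    omega
  obtain ⟨j, hj, hqj⟩ : ∃ j : ℕ, 1 ≤ j ∧ q = p ^ j := by
    obtain ⟨j, -, hj⟩ := (Nat.dvd_prime_pow hp).1 (show q ∣ p ^ (k : ℕ) by
      rw [← hpk, hF]; exact dvd_pow_self _ two_ne_zero)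
    refine ⟨j, ?_, hj⟩
    rcases j with _ | j
    · rw [pow_zero] at hj
      omega
    · omega
  -- the index
  have hcard := H277.ClsPsu.card_psu hF hn
  rw [← A.card_mul_index, show n - 1 = n - 2 + 1 by omega, Finset.prod_range_succ, show n - 2 + 2 = n by omega,
    if_neg (by rw [Nat.not_even_iff_odd, hnm]; exact ⟨m - 1, by omega⟩)] at hcard
  have hidx : A.index ≤ (q + 1) * (q ^ (n * (n - 1) / 2) *
      ∏ i ∈ Finset.range (n - 2), (if Even i then q ^ (i + 2) - 1 else q ^ (i + 2) + 1)) := by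
    apply Nat.le_of_mul_le_mul_left _ (show 0 < q ^ n + 1 by omega)
    calc (q ^ n + 1) * A.index ≤ ((q + 1) * n.gcd (q + 1) * Nat.card A) * A.index := Nat.mul_le_mul_right _ hlow
      _ = (q + 1) * (n.gcd (q + 1) * (Nat.card A * A.index)) := by ring
      _ = _ := by rw [show n * (n - 2 + 1) = n * (n - 1) by rw [show n - 2 + 1 = n - 1 by omega]] at hcard; rw [hcard]; ring
  have hidx3 : n = 3 → A.index ≤ (q + 1) * (q ^ 3 * (q ^ 2 - 1)) := by
    intro h3
    subst h3
    norm_num at hidx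
    exact hidx
  by_cases h32 : n = 3 ∧ q = 2
  · have h1 := hidx3 h32.1
    have h2 := h.big
    have h3 : (q + 1) * (q ^ 3 * (q ^ 2 - 1)) = 72 := by rw [h32.2]; norm_num
    omega
  have hs : IsSimpleGroup (PSU n F q) := simple_psu hF hn h32
  have hZ : center (PSU n F q) = ⊥ := center_bot_of_simple (not_comm_psu hs)
  let _ : Fintype (GaloisField p j) := Fintype.ofFinite _
  have hF₀ : Fintype.card (GaloisField p j) = q := by
    rw [← Nat.card_eq_fintype_card, GaloisField.card p j (by omega), hqj]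
  obtain ⟨e1⟩ := (S2706.result hqj hj hF hn h32 hnm (GaloisField p j) hF₀ σ σ hcl ho hcl ho).1
  obtain ⟨hc, hf⟩ := cent_le hZ h hσ ho (H169.UAut.inn_le_inndiag hF) (card_inndiag_psu hF hn hZ) hup
  rw [Nat.card_congr e1.toEquiv] at hc
  obtain ⟨b1, b2⟩ := pgo_bounds (F := GaloisField p j) hF₀ hnm
  refine fin_all hn hnm hq (Nat.gcd_dvd_left n (q + 1)) ?_ h.big hf hc hidx3 ?_ b1 b2
  · intro hn5 he
    by_contra hcon
    rw [not_or] at hcon
    have h4 : q = 2 ∨ q = 3 := by omega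
    have h5 : n = 3 ∨ n = 5 := by omega
    apply he
    rcases h4 with h4 | h4 <;> rcases h5 with h5 | h5
    · exact absurd ⟨h5, h4⟩ h32
    · rw [h4, h5]
      decide
    · rw [h4, h5]
      decide
    · rw [h4, h5]
      decide
  · refine hidx.trans ?_
    have h1 := prod_psu hq (m - 1)
    have h3 : n * (n - 1) / 2 = m * (2 * m + 1) := by
      rw [show n - 1 = 2 * m by omega, hnm, show (2 * m + 1) * (2 * m) = 2 * (m * (2 * m + 1)) by ring,
        Nat.mul_div_cancel_left _ two_pos]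
    rw [show 2 * (m - 1) + 1 = n - 2 by omega, show m - 1 + 1 = m by omega, show 2 * (m - 1) + 3 = 2 * m + 1 by omega] at h1
    rw [h3]
    calc _ = q ^ (m * (2 * m + 1)) * ((q + 1) * ∏ i ∈ Finset.range (n - 2), (if Even i then q ^ (i + 2) - 1 else q ^ (i + 2) + 1)) := by
          ring
      _ ≤ q ^ (m * (2 * m + 1)) * (2 ^ m * q ^ (m * (2 * m + 1))) := Nat.mul_le_mul_left _ h1
      _ = _ := by rw [two_mul (m * (2 * m + 1)), pow_add]; ring

end Cfsg.Agent.H5.IFO
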