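import Cfsg.Agent.H371.IFx.Base
import Cfsg.Agent.H163.PG.AutBase
import Cfsg.Agent.H245.RankOneOrth
import Cfsg.Agent.H5.IFO.Ineq
import Cfsg.Agent.ClassicalGeometry.PSL2Basic
import Cfsg.Agent.S0286
import Cfsg.Agent.S0287

/-!
# S5719, the graph automorphism of `PSL_n`, `PSU_n`, `n` odd: the group part (helper5)

* `cent_le` : `|I ⊓ C(σ)| ≤ e n fx` if `|C_A(σ)| ≤ n` and `|I : Inn T| = e`;
* `card_pgo_one`, `card_pgo` : lower bounds of `|PGO_{2m+1}(q)|`.
-/

set_option autoImplicit false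

namespace Cfsg.Agent.H5.IFO

open Subgroup Cfsg Matrix Cfsg.Agent.H209.Fxy Cfsg.Agent.H163.PG

theorem cent_le {T : Type*} [Group T] [Finite T] (hZ : center T = ⊥) {A : Subgroup T} {Γ : Subgroup (MulAut T)}
    (h : IF A Γ) {σ : MulAut T} (hσ : σ ∈ Γ) (ho : orderOf σ = 2) {I : Subgroup (MulAut T)} (hI : Inn T ≤ I) {e n : ℕ}
    (hcI : Nat.card I = e * Nat.card T) (hup : Nat.card {a // a ∈ A ∧ σ a = a} ≤ n) :
    Nat.card ↥(I ⊓ centralizer {σ}) ≤ e * (n * fx A σ) ∧ fx A σ ^ 6 < A.index := by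
  refine ⟨?_, h.small σ hσ ho⟩
  have hfin : Finite (MulAut T) := inferInstance
  let B : Subgroup T :=
    { carrier := {t | σ t = t}
      one_mem' := map_one σ
      mul_mem' := fun {a b} ha hb => by
        show σ (a * b) = a * b
        rw [map_mul, show σ a = a from ha, show σ b = b from hb]
      inv_mem' := fun {a} ha => by
        show σ a⁻¹ = a⁻¹
        rw [map_inv, show σ a = a from ha] }
  have hB : ∀ b ∈ B, σ b = b := fun b hb => hb
  -- |B| ≤ n fx
  have h1 : Nat.card B ≤ n * fx A σ := by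
    have h2 : Nat.card (A.subgroupOf B) * (A.subgroupOf B).index = Nat.card B := (A.subgroupOf B).card_mul_index
    have h3 : Nat.card (A.subgroupOf B) ≤ Nat.card {a // a ∈ A ∧ σ a = a} := by
      refine Nat.card_le_card_of_injective (fun x : A.subgroupOf B => ⟨((x : B) : T), mem_subgroupOf.1 x.2, x.1.2⟩) ?_
      intro a b hab
      have h3 := congrArg Subtype.val hab
      exact Subtype.ext (Subtype.ext h3)
    rw [← h2]
    exact Nat.mul_le_mul (h3.trans hup) (H371.IFx.relIndex_le_fx A hB)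
  -- the inner part of the centraliser
  set C := I ⊓ centralizer {σ} with hC
  have h4 : Nat.card ((Inn T).subgroupOf C) ≤ Nat.card B := by
    refine Nat.card_le_card_of_injective (fun x : (Inn T).subgroupOf C =>
      (⟨(mem_subgroupOf.1 x.2).choose, ?_⟩ : B)) ?_
    · have hx := (mem_subgroupOf.1 x.2).choose_spec
      set t := (mem_subgroupOf.1 x.2).choose
      have h5 : MulAut.conj t ∈ centralizer ({σ} : Set (MulAut T)) := by
        rw [hx]
        exact (x : C).2.2
      rw [mem_centralizer_singleton_iff] at h5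
      show σ t = t
      apply conj_injective hZ
      have h6 : σ * MulAut.conj t * σ⁻¹ = MulAut.conj (σ t) := by
        ext y
        simp [MulAut.mul_apply, MulAut.conj_apply, map_mul, map_inv]
      rw [← h6, ← h5, mul_inv_cancel_right]
    · intro a b hab
      have ha := (mem_subgroupOf.1 a.2).choose_spec
      have hb := (mem_subgroupOf.1 b.2).choose_spec
      have h5 := congrArg Subtype.val hab
      simp only at h5
      apply Subtype.ext
      apply Subtype.ext
      rw [← ha, ← hb, h5]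
  have h5 : ((Inn T).subgroupOf C).index ≤ e := by
    have h6 : (Inn T).relIndex C ≤ (Inn T).relIndex I :=
      relIndex_le_of_le_right inf_le_left (by
        have : (Inn T).relIndex I ∣ Nat.card I := relIndex_dvd_card _ _
        intro h0
        rw [h0, zero_dvd_iff] at this
        exact Nat.card_pos.ne' this)
    have h7 : (Inn T).relIndex I = e := by
      have h8 := card_A hZ hI
      rw [hcI] at h8
      exact (Nat.eq_of_mul_eq_mul_right Nat.card_pos h8).symm
    rw [h7] at h6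
    exact h6
  rw [← ((Inn T).subgroupOf C).card_mul_index, mul_comm e]
  exact Nat.mul_le_mul (h4.trans h1) h5

section

universe u

variable {F : Type u} [Field F]

/-- a group of similarities with few scalars -/
theorem card_le_projQuot {ι : Type} [Fintype ι] [DecidableEq ι] [Finite F] {H : Subgroup (GL ι F)} {K : Type*} [Group K] {k : ℕ}
    [NeZero k] (f : K →* H) (hf : Function.Injective f)
    (hc : ∀ (x : K) (c : Fˣ), ((f x : GL ι F) : Matrix ι ι F) = (c : F) • (1 : Matrix ι ι F) → c ^ k = 1) :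
    Nat.card K ≤ k * Nat.card (projQuot H) := by
  have hfin : Finite H := Subtype.finite
  let g : K →* projQuot H := (QuotientGroup.mk' _).comp f
  have h1 : ∀ x : K, x ∈ g.ker → ∃ c : Fˣ, ((f x : GL ι F) : Matrix ι ι F) = (c : F) • (1 : Matrix ι ι F) := by
    intro x hx
    have h2 : f x ∈ (Geo.scalars ι F).subgroupOf H := (QuotientGroup.eq_one_iff _).1 (MonoidHom.mem_ker.1 hx)
    rw [mem_subgroupOf, Geo.mem_scalars_iff] at h2
    exact h2
  have h3 : Nat.card g.ker ≤ k := by
    refine le_trans (Nat.card_le_card_of_injective (fun x : g.ker => (⟨(h1 x x.2).choose,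
      hc x _ (h1 x x.2).choose_spec⟩ : rootsOfUnity k F)) ?_) (card_rootsOfUnity F k)
    intro a b hab
    have h4 := congrArg Subtype.val hab
    simp only at h4
    have ha := (h1 a a.2).choose_spec
    have hb := (h1 b b.2).choose_spec
    rw [h4, ← hb] at ha
    exact Subtype.ext (hf (Subtype.ext (Units.ext ha)))
  have h2 : Nat.card g.ker * Nat.card g.range = Nat.card K := by
    rw [← index_ker, card_mul_index]
  rw [← h2]
  exact Nat.mul_le_mul h3
    (Nat.card_le_card_of_injective _ (Subtype.val_injective : Function.Injective (Subtype.val : g.range → projQuot H)))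

/-- `m = 1` -/
theorem card_pgo_one [Fintype F] {q : ℕ} (hF : Fintype.card F = q) :
    q * (q ^ 2 - 1) ≤ Nat.card (PGO F (quadFormOdd 1 F)) := by
  classical
  have hfin : Finite (PGO F (quadFormOdd 1 F)) := Quotient.finite _
  have hq : 2 ≤ q := hF ▸ Fintype.one_lt_card
  obtain ⟨p, hc, f, hp, hpf⟩ := FiniteField.card' F
  rcases Nat.even_or_odd q with hev | hodd
  · have h2 : p = 2 := by
      have h3 : 2 ∣ p ^ (f : ℕ) := by rw [← hpf, hF]; exact hev.two_dvd
      exact ((Nat.prime_dvd_prime_iff_eq Nat.prime_two hp).1 (Nat.prime_two.dvd_of_dvd_pow h3)).symm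
    subst h2
    have h6 := Nat.le_of_dvd Nat.card_pos (H245.RankOneOrth.card_dvd (F := F))
    refine le_trans (le_of_eq ?_) h6
    have h7 := Cfsg.Agent.ClassicalGeometry.PSL2Basic.card_SL_mul (Fin 2) F
    rw [Matrix.card_GL_field, hF] at h7
    apply Nat.eq_of_mul_eq_mul_right (show 0 < q - 1 by omega)
    rw [h7, Fin.prod_univ_two]
    obtain ⟨k, rfl⟩ := Nat.exists_eq_add_of_le' hq
    have e1 : (k + 2) ^ 2 - 1 = (k + 1) * (k + 3) := by
      have : (k + 2) ^ 2 = (k + 1) * (k + 3) + 1 := by ring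
      omega
    have e2 : (k + 2) ^ 2 - (k + 2) = (k + 1) * (k + 2) := by
      have : (k + 2) ^ 2 = (k + 1) * (k + 2) + (k + 2) := by ring
      omega
    simp only [Fin.val_zero, Fin.val_one, pow_zero, pow_one]
    rw [e1, e2, show k + 2 - 1 = k + 1 by omega]
    ring
  · have h1 := S0286.result hF hodd 1
    have hle : isometryGroup F (quadFormOdd 1 F) ≤ Geo.quadSimilarityGroup (F := F) (quadFormOdd 1 F) := by
      intro g hg
      refine ⟨1, fun v => ?_⟩
      rw [Units.val_one, one_mul]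
      exact hg v v
    have h2 := card_le_projQuot (k := 2) (Subgroup.inclusion hle) (Subgroup.inclusion_injective hle) (by
      intro x c hx
      have h3 := x.2 (fun i => if i = Sum.inl () then 1 else 0) 0
      have h5 : (((Subgroup.inclusion hle x : Geo.quadSimilarityGroup (F := F) (quadFormOdd 1 F)) :
        GL (Unit ⊕ (Fin 1 ⊕ Fin 1)) F) : Matrix (Unit ⊕ (Fin 1 ⊕ Fin 1)) (Unit ⊕ (Fin 1 ⊕ Fin 1)) F) =
        ((x : GL (Unit ⊕ (Fin 1 ⊕ Fin 1)) F) : Matrix (Unit ⊕ (Fin 1 ⊕ Fin 1)) (Unit ⊕ (Fin 1 ⊕ Fin 1)) F) := rfl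
      rw [h5] at hx
      have h4 : (Units.coeHom (Matrix (Unit ⊕ (Fin 1 ⊕ Fin 1)) (Unit ⊕ (Fin 1 ⊕ Fin 1)) F))
        (x : GL (Unit ⊕ (Fin 1 ⊕ Fin 1)) F) = ((x : GL (Unit ⊕ (Fin 1 ⊕ Fin 1)) F) :
        Matrix (Unit ⊕ (Fin 1 ⊕ Fin 1)) (Unit ⊕ (Fin 1 ⊕ Fin 1)) F) := rfl
      rw [h4, hx, Matrix.smul_mulVec, Matrix.one_mulVec] at h3
      simp [quadFormOdd] at h3
      rcases h3 with h3 | h3 <;> rw [h3] <;> simp)
    rw [h1, Finset.prod_range_one, zero_add, mul_one, one_pow, pow_one, mul_assoc] at h2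
    exact Nat.le_of_mul_le_mul_left h2 two_pos

/-- `1 ⊕ g` -/
def oneSum {m : ℕ} : GL (Fin m ⊕ Fin m) F →* GL (Unit ⊕ (Fin m ⊕ Fin m)) F :=
  MonoidHom.toHomUnits
    { toFun := fun g => Matrix.fromBlocks (1 : Matrix Unit Unit F) 0 0 (g : Matrix (Fin m ⊕ Fin m) (Fin m ⊕ Fin m) F)
      map_one' := by
        rw [Units.val_one, Matrix.fromBlocks_one]
      map_mul' := fun g h => by
        rw [Matrix.fromBlocks_multiply]
        simp }

theorem coe_oneSum {m : ℕ} (g : GL (Fin m ⊕ Fin m) F) : ((oneSum g : GL (Unit ⊕ (Fin m ⊕ Fin m)) F) : Matrix _ _ F) =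
    Matrix.fromBlocks (1 : Matrix Unit Unit F) 0 0 (g : Matrix (Fin m ⊕ Fin m) (Fin m ⊕ Fin m) F) := rfl

theorem card_pgo [Fintype F] {m : ℕ} :
    Nat.card (isometryGroup F (quadFormPlus m F)) ≤ Nat.card (PGO F (quadFormOdd m F)) := by
  classical
  have hmem : ∀ g : isometryGroup F (quadFormPlus m F), oneSum (g : GL (Fin m ⊕ Fin m) F) ∈
      Geo.quadSimilarityGroup (F := F) (quadFormOdd m F) := by
    intro g
    refine ⟨1, fun v => ?_⟩
    rw [Units.val_one, one_mul, coe_oneSum]
    have h1 : ∀ w : Fin m ⊕ Fin m → F, quadFormPlus m F (((g : GL (Fin m ⊕ Fin m) F) : Matrix _ _ F) *ᵥ w) = quadFormPlus m F w :=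
      fun w => g.2 w w
    have h2 : ∀ w : Unit ⊕ (Fin m ⊕ Fin m) → F, quadFormOdd m F w = w (Sum.inl ()) ^ 2 + quadFormPlus m F (fun i => w (Sum.inr i)) :=
      fun w => rfl
    rw [h2, h2 v, Matrix.fromBlocks_mulVec]
    simp only [Sum.elim_inl, Sum.elim_inr, Matrix.one_mulVec, Matrix.zero_mulVec, add_zero, zero_add]
    congr 1
    exact h1 _
  let f : isometryGroup F (quadFormPlus m F) →* Geo.quadSimilarityGroup (F := F) (quadFormOdd m F) :=
    (oneSum.comp (isometryGroup F (quadFormPlus m F)).subtype).codRestrict _ hmem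
  have h3 := card_le_projQuot (k := 1) f (by
    intro a b hab
    have h4 : oneSum (a : GL (Fin m ⊕ Fin m) F) = oneSum (b : GL (Fin m ⊕ Fin m) F) := congrArg Subtype.val hab
    have h5 := congrArg Units.val h4
    rw [coe_oneSum, coe_oneSum] at h5
    exact Subtype.ext (Units.ext (Matrix.fromBlocks_inj.1 h5).2.2.2)) (by
    intro x c hx
    have h4 := congrFun (congrFun hx (Sum.inl ())) (Sum.inl ())
    have h5 : (((f x : Geo.quadSimilarityGroup (F := F) (quadFormOdd m F)) : GL (Unit ⊕ (Fin m ⊕ Fin m)) F) :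
        Matrix (Unit ⊕ (Fin m ⊕ Fin m)) (Unit ⊕ (Fin m ⊕ Fin m)) F) =
      Matrix.fromBlocks (1 : Matrix Unit Unit F) 0 0 ((x : GL (Fin m ⊕ Fin m) F) : Matrix (Fin m ⊕ Fin m) (Fin m ⊕ Fin m) F) :=
      rfl
    rw [h5] at h4
    simp at h4
    rw [pow_one]
    apply Units.ext
    rw [← h4, Units.val_one])
  rw [one_mul] at h3
  exact h3

end

end Cfsg.Agent.H5.IFO
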