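import Cfsg.Agent.H716.IFO.Cases

/-!
# S5719, `|A|` odd, linear groups: the Singer structure (helper5)

`E` a subfield of `End_K(V)` with `dim_K E = dim_K V`, invariant under `S`.
* `sing_low` : `q^n - 1 ≤ (q - 1) gcd(n, q - 1) |A|`;
* `sing_up_graph` : a `K`-linear anti-automorphism `f ∈ S` of order two has at most `n` fixed points on `A`, `n` odd.
-/

set_option autoImplicit false
set_option linter.unusedSectionVars false
set_option linter.style.haveILetI false

namespace Cfsg.Agent.H5.IFO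

open Cfsg.Agent.H198.FC Cfsg.Agent.H716.FC Cfsg.Agent.H716.IFO Module

universe u v

variable {K : Type u} [Field K] {V : Type v} [AddCommGroup V] [Module K V]

/-- `dim_E V = 1`: the centraliser of `E` is `E` -/
theorem mem_of_comm [Nontrivial V] [Module.Finite K V] {E : Subalgebra K (R K V)} (hE : IsField E)
    (hd : finrank K E = finrank K V) {Y : R K V} (hY : ∀ X ∈ E, Y * X = X * Y) : Y ∈ E := by
  obtain ⟨v, hv⟩ := exists_ne (0 : V)
  let φ : E →ₗ[K] V :=
    { toFun := fun X => (X : R K V) v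
      map_add' := fun X Y => rfl
      map_smul' := fun s X => rfl }
  have hφ : Function.Injective φ := by
    rw [← LinearMap.ker_eq_bot, Submodule.eq_bot_iff]
    intro X hX
    have h1 : (X : R K V) v = 0 := hX
    by_contra h0
    obtain ⟨X', hX'⟩ := hE.mul_inv_cancel h0
    have h2 : (X' : R K V) * (X : R K V) = 1 := by
      rw [hE.mul_comm] at hX'
      exact congrArg Subtype.val hX'
    apply hv
    calc v = ((X' : R K V) * (X : R K V)) v := by rw [h2]; rfl
      _ = 0 := by rw [Module.End.mul_apply, h1, map_zero]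
  have hsurj : Function.Surjective φ := (LinearMap.injective_iff_surjective_of_finrank_eq_finrank hd).1 hφ
  obtain ⟨X, hX⟩ := hsurj (Y v)
  have h3 : Y = X := by
    ext w
    obtain ⟨Z, hZ⟩ := hsurj w
    have e1 : (X : R K V) v = Y v := hX
    have e2 : (Z : R K V) v = w := hZ
    have e3 : (Z : R K V) * X = X * Z := congrArg Subtype.val (hE.mul_comm Z X)
    calc Y w = (Y * Z) v := by rw [Module.End.mul_apply, e2]
      _ = (Z : R K V) (Y v) := by rw [hY Z Z.2, Module.End.mul_apply]
      _ = ((Z : R K V) * X) v := by rw [← e1, Module.End.mul_apply]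
      _ = (X : R K V) w := by rw [e3, Module.End.mul_apply, e2]
  rw [h3]
  exact X.2

section low

variable {A S : Subgroup (Equiv.Perm (R K V))} [Finite K] [Module.Finite K V]

/-- conjugations with values a scalar -/
theorem scalar_of_cj_one [Nontrivial V] {x : (R K V)ˣ} (hx : cj K V x = 1) : ∃ s : K, (x : R K V) = s • (1 : R K V) := by
  apply sc_of_comm_SL
  intro a _
  have h1 : cj K V x a = a := by rw [hx]; rfl
  rw [cj_apply] at h1
  have h2 := congrArg (fun Z => Z * (x : R K V)) h1
  simp only [mul_assoc, Units.inv_mul, mul_one] at h2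
  exact h2.symm

/-- the norm one elements of `E` -/
theorem card_unit_le [Nontrivial V] {E : Subalgebra K (R K V)} (hE : IsField E) (hd : finrank K E = finrank K V) :
    ∃ U : Subgroup (R K V)ˣ, (∀ u ∈ U, (u : R K V) ∈ E ∧ LinearMap.det (u : R K V) = 1) ∧
      Nat.card K ^ finrank K V - 1 ≤ (Nat.card K - 1) * Nat.card U ∧
      Nat.card U ≤ (finrank K V).gcd (Nat.card K - 1) * Nat.card (U.map (cj K V)) := by
  classical
  have hfin : Finite (R K V) := finite_R
  have hfinu : Finite (R K V)ˣ := inferInstance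
  let iE : Field E := hE.toField
  have : Finite E := inferInstance
  let ι : Eˣ →* (R K V)ˣ := Units.map (E.val : E →* R K V)
  have hι : Function.Injective ι := Units.map_injective Subtype.val_injective
  let δ : (R K V)ˣ →* Kˣ := Units.map (LinearMap.det : R K V →* K)
  let N : Subgroup Eˣ := (δ.comp ι).ker
  have hN : Nat.card N * Nat.card (δ.comp ι).range = Nat.card Eˣ := by
    rw [← Subgroup.index_ker, Subgroup.card_mul_index]
  have hEu : Nat.card Eˣ = Nat.card K ^ finrank K V - 1 := by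
    rw [Nat.card_units, ← hd, Module.natCard_eq_pow_finrank (K := K)]
  have hr : Nat.card (δ.comp ι).range ≤ Nat.card K - 1 := by
    rw [← Nat.card_units]
    exact Nat.card_le_card_of_injective _ (Subtype.val_injective : Function.Injective (Subtype.val : (δ.comp ι).range → Kˣ))
  refine ⟨N.map ι, ?_, ?_, ?_⟩
  · rintro _ ⟨u, hu, rfl⟩
    exact ⟨(u : E).2, congrArg Units.val (MonoidHom.mem_ker.1 hu)⟩
  · rw [Subgroup.card_map_of_injective hι, ← hEu, ← hN, mul_comm]
    exact Nat.mul_le_mul_right _ hr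
  · set U := N.map ι with hU
    let g : U →* Equiv.Perm (R K V) := (cj K V).comp U.subtype
    have h1 : Nat.card g.ker * Nat.card g.range = Nat.card U := by
      rw [← Subgroup.index_ker, Subgroup.card_mul_index]
    have h2 : g.range = U.map (cj K V) := by
      rw [MonoidHom.range_comp, Subgroup.range_subtype]
    have h3 : Nat.card g.ker ≤ (finrank K V).gcd (Nat.card K - 1) := by
      have h4 : Nat.card (powMonoidHom (finrank K V) : Kˣ →* Kˣ).ker = (finrank K V).gcd (Nat.card K - 1) := by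
        rw [IsCyclic.card_powMonoidHom_ker, Nat.card_units, Nat.gcd_comm]
      rw [← h4]
      have h5 : ∀ x : g.ker, ∃ s : Kˣ, s ∈ (powMonoidHom (finrank K V) : Kˣ →* Kˣ).ker ∧
          (((x : U) : (R K V)ˣ) : R K V) = (s : K) • (1 : R K V) := by
        intro x
        obtain ⟨s, hs⟩ := scalar_of_cj_one (x := ((x : U) : (R K V)ˣ)) (MonoidHom.mem_ker.1 x.2)
        have hdet : LinearMap.det (((x : U) : (R K V)ˣ) : R K V) = 1 := by
          obtain ⟨u, hu, hux⟩ := (x : U).2
          rw [← hux]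
          exact congrArg Units.val (MonoidHom.mem_ker.1 hu)
        rw [hs, LinearMap.det_smul, map_one, mul_one] at hdet
        have hs0 : s ≠ 0 := by
          rintro rfl
          rw [zero_pow (Module.finrank_pos (R := K) (M := V)).ne'] at hdet
          exact zero_ne_one hdet
        refine ⟨Units.mk0 s hs0, ?_, hs⟩
        rw [MonoidHom.mem_ker, powMonoidHom_apply]
        apply Units.ext
        rw [Units.val_pow_eq_pow_val, Units.val_mk0, hdet, Units.val_one]
      choose c hc hc' using h5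
      refine Nat.card_le_card_of_injective (fun x : g.ker => (⟨c x, hc x⟩ : (powMonoidHom (finrank K V) : Kˣ →* Kˣ).ker)) ?_
      intro x y hxy
      have h6 : c x = c y := congrArg Subtype.val hxy
      apply Subtype.ext
      apply Subtype.ext
      apply Units.ext
      rw [hc' x, hc' y, h6]
    rw [← h1, h2]
    exact Nat.mul_le_mul_right _ h3

theorem sing_eq (h : Fr (SLX K V) A S) {E : Subalgebra K (R K V)} (hE : IsField E) (hd : finrank K E = finrank K V)
    (hSE : ∀ f ∈ S, ∀ X ∈ E, f X ∈ E) : (SLX K V).map (cj K V) ⊓ StS (E : Set (R K V)) = A := by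
  haveI := h.nontriv
  rcases h.eq_or (StS (E : Set (R K V))) (fun f hf => mem_StS_of (hSE f hf)) with h1 | h1
  · exact h1
  · exfalso
    obtain ⟨U, hU, hU1, hU2⟩ := card_unit_le hE hd
    have hfin : Finite (R K V) := finite_R
    -- a non-scalar element of norm one
    have h2 : ∃ u ∈ U, cj K V u ≠ 1 := by
      by_contra hcon
      push Not at hcon
      have h3 : U.map (cj K V) = ⊥ := by
        rw [Subgroup.eq_bot_iff_forall]
        rintro _ ⟨u, hu, rfl⟩
        exact hcon u hu
      rw [h3, Subgroup.card_bot, mul_one] at hU2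
      have hq : 2 ≤ Nat.card K := Finite.one_lt_card
      have h4 : (finrank K V).gcd (Nat.card K - 1) ≤ Nat.card K - 1 := Nat.gcd_le_right _ (by omega)
      have h5 : Nat.card K ^ finrank K V - 1 ≤ (Nat.card K - 1) * (Nat.card K - 1) :=
        hU1.trans (Nat.mul_le_mul_left _ (hU2.trans h4))
      have h6 : Nat.card K ^ 3 ≤ Nat.card K ^ finrank K V := Nat.pow_le_pow_right (by omega) h.hn
      obtain ⟨k, hk⟩ := Nat.exists_eq_add_of_le' hq
      rw [hk] at h5 h6
      have h7 : (k + 2) ^ 3 = (k + 1) * (k + 1) + (k ^ 3 + 5 * k ^ 2 + 10 * k + 7) := by ring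
      have h8 : k + 2 - 1 = k + 1 := by omega
      rw [h8] at h5
      omega
    obtain ⟨u, hu, hu1⟩ := h2
    obtain ⟨huE, hud⟩ := hU u hu
    obtain ⟨s, hs⟩ := h.sc_of_StS (E : Set (R K V)) h1 hud hu1
      (fun Y hY => congrArg Subtype.val (hE.mul_comm ⟨(u : R K V), huE⟩ ⟨Y, hY⟩)) _ huE
    apply hu1
    apply Equiv.ext
    intro X
    have hc : (u : R K V) * X = X * u := by rw [hs, smul_mul_assoc, one_mul, mul_smul_comm, mul_one]
    rw [cj_apply, hc, mul_assoc, Units.mul_inv, mul_one]
    rfl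

theorem sing_low (h : Fr (SLX K V) A S) {E : Subalgebra K (R K V)} (hE : IsField E) (hd : finrank K E = finrank K V)
    (hSE : ∀ f ∈ S, ∀ X ∈ E, f X ∈ E) :
    Nat.card K ^ finrank K V - 1 ≤ (Nat.card K - 1) * (finrank K V).gcd (Nat.card K - 1) * Nat.card A := by
  haveI := h.nontriv
  have hfin : Finite (R K V) := finite_R
  obtain ⟨U, hU, hU1, hU2⟩ := card_unit_le hE hd
  have h1 : U.map (cj K V) ≤ A := by
    rw [← sing_eq h hE hd hSE]
    rintro _ ⟨u, hu, rfl⟩
    obtain ⟨huE, hud⟩ := hU u hu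
    refine ⟨cj_mem hud, mem_StS_of ?_⟩
    intro Y hY
    have h2 : (u : R K V) * Y = Y * u := congrArg Subtype.val (hE.mul_comm ⟨(u : R K V), huE⟩ ⟨Y, hY⟩)
    have h3 : cj K V u Y = Y := by rw [cj_apply, h2, mul_assoc, Units.mul_inv, mul_one]
    rw [h3]
    exact hY
  have h2 : Nat.card (U.map (cj K V)) ≤ Nat.card A := Subgroup.card_le_of_le h1
  calc _ ≤ (Nat.card K - 1) * Nat.card U := hU1
    _ ≤ (Nat.card K - 1) * ((finrank K V).gcd (Nat.card K - 1) * Nat.card (U.map (cj K V))) := Nat.mul_le_mul_left _ hU2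
    _ ≤ (Nat.card K - 1) * ((finrank K V).gcd (Nat.card K - 1) * Nat.card A) :=
        Nat.mul_le_mul_left _ (Nat.mul_le_mul_left _ h2)
    _ = _ := by ring

theorem fix_one_of_cj {x : (R K V)ˣ} {Y : R K V} : cj K V x Y = Y ↔ (x : R K V) * Y = Y * x := by
  rw [cj_apply]
  constructor
  · intro h1
    have h2 := congrArg (fun Z => Z * (x : R K V)) h1
    simp only [mul_assoc, Units.inv_mul, mul_one] at h2
    exact h2
  · intro h1
    rw [h1, mul_assoc, Units.mul_inv, mul_one]

/-- the fixed points of `f` on `A` embed in `Gal(E/K)` if `f` inverts the elements of `A` centralizing `E` -/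
theorem card_le_of_inv (h : Fr (SLX K V) A S) {E : Subalgebra K (R K V)} (hE : IsField E)
    (hd : finrank K E = finrank K V) (hSE : ∀ f ∈ S, ∀ X ∈ E, f X ∈ E) {f : Equiv.Perm (R K V)}
    (hinv : ∀ x : (R K V)ˣ, (x : R K V) ∈ E → cj K V x ∈ A → f * cj K V x = cj K V x * f → cj K V x = 1) :
    Nat.card {a // a ∈ A ∧ f * a = a * f} ≤ finrank K V := by
  classical
  haveI := h.nontriv
  have hfin : Finite (R K V) := finite_R
  let iE : Field E := hE.toField
  have : Finite E := inferInstance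
  have hres : ∀ a : {a // a ∈ A ∧ f * a = a * f}, ∃ g : E →ₐ[K] E, ∀ X : E, (g X : R K V) = (a : Equiv.Perm (R K V)) X := by
    rintro ⟨a, ha, -⟩
    obtain ⟨x, -, rfl⟩ := h.AX ha
    have hE' : ∀ X ∈ E, cj K V x X ∈ E := hSE _ (h.AS ha)
    refine ⟨AlgHom.ofLinearMap
      { toFun := fun X => ⟨cj K V x X, hE' X X.2⟩
        map_add' := fun X Y => Subtype.ext ((cj_mem_RP x).1 X Y)
        map_smul' := fun s X => Subtype.ext (by
          change (x : R K V) * (s • (X : R K V)) * ((x⁻¹ : (R K V)ˣ) : R K V) = s • (cj K V x X)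
          rw [mul_smul_comm, smul_mul_assoc, cj_apply]) } ?_ ?_, fun X => rfl⟩
    · apply Subtype.ext
      change (x : R K V) * (1 : R K V) * ((x⁻¹ : (R K V)ˣ) : R K V) = 1
      rw [mul_one, Units.mul_inv]
    · intro X Y
      exact Subtype.ext ((cj_mem_RP x).2 X Y)
  choose g hg using hres
  have hcard : Nat.card (E →ₐ[K] E) ≤ finrank K V := by
    rw [← hd]
    exact card_algHom_le_finrank K E E
  have : Finite (E →ₐ[K] E) := Finite.of_injective (fun φ : E →ₐ[K] E => (φ : E → E)) DFunLike.coe_injective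
  refine le_trans (Nat.card_le_card_of_injective g ?_) hcard
  intro a b hab
  apply Subtype.ext
  have h1 : ∀ X ∈ E, (a : Equiv.Perm (R K V)) X = (b : Equiv.Perm (R K V)) X := by
    intro X hX
    have h2 := congrArg (fun φ : E →ₐ[K] E => ((φ ⟨X, hX⟩ : E) : R K V)) hab
    simp only [hg] at h2
    exact h2
  -- `b⁻¹ a` centralizes `E`
  have h2 : (b : Equiv.Perm (R K V))⁻¹ * a ∈ A := A.mul_mem (A.inv_mem b.2.1) a.2.1
  obtain ⟨x, hx, hxab⟩ := h.AX h2
  have h3 : ∀ X ∈ E, cj K V x X = X := by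
    intro X hX
    rw [hxab, Equiv.Perm.mul_apply, h1 X hX]
    exact (b : Equiv.Perm (R K V)).symm_apply_apply X
  have h4 : (x : R K V) ∈ E := mem_of_comm hE hd (fun X hX => fix_one_of_cj.1 (h3 X hX))
  have h5 : f * cj K V x = cj K V x * f := by
    rw [hxab]
    have hb : f * (b : Equiv.Perm (R K V))⁻¹ = (b : Equiv.Perm (R K V))⁻¹ * f := by
      rw [mul_inv_eq_iff_eq_mul, mul_assoc, b.2.2, inv_mul_cancel_left]
    rw [← mul_assoc, hb, mul_assoc, a.2.2, mul_assoc]
  have h6 := hinv x h4 (by rw [hxab]; exact h2) h5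
  rw [hxab] at h6
  exact (inv_mul_eq_one.1 h6).symm

theorem sing_up_graph (h : Fr (SLX K V) A S) {E : Subalgebra K (R K V)} (hE : IsField E)
    (hd : finrank K E = finrank K V) (hSE : ∀ f ∈ S, ∀ X ∈ E, f X ∈ E) (hn : Odd (finrank K V))
    {f : Equiv.Perm (R K V)} (hf : f ∈ S) (hff : f * f = 1) (hanti : ∀ X Y, f (X * Y) = f Y * f X)
    (hlin : ∀ (s : K) X, f (s • X) = s • f X) : Nat.card {a // a ∈ A ∧ f * a = a * f} ≤ finrank K V := by
  classical
  haveI := h.nontriv
  have hfin : Finite (R K V) := finite_R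
  let iE : Field E := hE.toField
  have : Finite E := inferInstance
  have hadd : ∀ X Y, f (X + Y) = f X + f Y := (h.hS hf).1
  have hffX : ∀ X, f (f X) = X := fun X => by rw [← Equiv.Perm.mul_apply, hff]; rfl
  have hone : f 1 = 1 := by
    calc f 1 = f 1 * 1 := (mul_one _).symm
      _ = f 1 * f (f 1) := by rw [hffX]
      _ = f (f 1 * 1) := (hanti _ _).symm
      _ = 1 := by rw [mul_one, hffX]
  let φ : E →ₐ[K] E := AlgHom.ofLinearMap
      { toFun := fun X => ⟨f X, hSE f hf X X.2⟩
        map_add' := fun X Y => Subtype.ext (hadd X Y)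
        map_smul' := fun s X => Subtype.ext (hlin s X) } (Subtype.ext hone) (fun X Y => by
          rw [hE.mul_comm X Y]
          exact Subtype.ext (hanti Y X))
  have hφφ : φ.comp φ = AlgHom.id K E := by
    apply AlgHom.ext
    intro X
    exact Subtype.ext (hffX X)
  let ψ : E ≃ₐ[K] E := AlgEquiv.ofAlgHom φ φ hφφ hφφ
  have hψ : ψ ^ 2 = 1 := by
    rw [pow_two]
    apply AlgEquiv.ext
    intro X
    exact Subtype.ext (hffX X)
  have hgal : Nat.card (E ≃ₐ[K] E) = finrank K V := by
    rw [← hd]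
    exact IsGalois.card_aut_eq_finrank K E
  have hψ1 : ψ = 1 := by
    have h1 : orderOf ψ ∣ 2 := orderOf_dvd_of_pow_eq_one hψ
    have h2 : orderOf ψ ∣ finrank K V := by
      rw [← hgal]
      exact orderOf_dvd_natCard ψ
    exact orderOf_eq_one_iff.1 (Nat.eq_one_of_dvd_coprimes (Nat.coprime_two_left.2 hn) h1 h2)
  have hfix : ∀ X ∈ E, f X = X := by
    intro X hX
    have h1 := congrArg (fun ρ : E ≃ₐ[K] E => ((ρ ⟨X, hX⟩ : E) : R K V)) hψ1
    exact h1
  refine card_le_of_inv h hE hd hSE ?_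
  intro x hx hxA hfx
  -- `f` inverts `cj x`
  have h1 : f * cj K V x = (cj K V x)⁻¹ * f := by
    apply Equiv.ext
    intro X
    rw [Equiv.Perm.mul_apply, Equiv.Perm.mul_apply, ← map_inv, cj_apply, cj_apply, inv_inv, hanti, hanti, hfix _ hx]
    have hxi : ((x⁻¹ : (R K V)ˣ) : R K V) ∈ E := by
      apply mem_of_comm hE hd
      intro Y hY
      have h2 : (x : R K V) * Y = Y * x := congrArg Subtype.val (hE.mul_comm ⟨(x : R K V), hx⟩ ⟨Y, hY⟩)
      calc ((x⁻¹ : (R K V)ˣ) : R K V) * Y = ((x⁻¹ : (R K V)ˣ) : R K V) * (Y * x) * ((x⁻¹ : (R K V)ˣ) : R K V) := by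
            rw [mul_assoc, mul_assoc, Units.mul_inv, mul_one]
        _ = ((x⁻¹ : (R K V)ˣ) : R K V) * ((x : R K V) * Y) * ((x⁻¹ : (R K V)ˣ) : R K V) := by rw [h2]
        _ = Y * ((x⁻¹ : (R K V)ˣ) : R K V) := by rw [← mul_assoc, Units.inv_mul, one_mul]
    rw [hfix _ hxi, mul_assoc]
  rw [h1] at hfx
  have h2 : (cj K V x) ^ 2 = 1 := by
    have h3 := mul_right_cancel hfx
    rw [pow_two]
    nth_rewrite 1 [← h3]
    rw [inv_mul_cancel]
  exact h.even_contra hxA 1 h2

end low

end Cfsg.Agent.H5.IFO
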