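import Cfsg.Agent.H5.IFO.Sing

/-!
# S5719, `|A|` odd, linear groups: the Singer structure and semilinear involutions (helper5)

`sing_up_field`, `sing_up_gf` : the number of fixed points on `A` of a semilinear (anti-)automorphism `f ∈ S` of order two.
-/

set_option autoImplicit false
set_option linter.unusedSectionVars false
set_option linter.style.haveILetI false

namespace Cfsg.Agent.H5.IFO

open Cfsg.Agent.H198.FC Cfsg.Agent.H716.FC Cfsg.Agent.H716.IFO Module

universe u v

/-- the involutory automorphism of a field with `Q²` elements -/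
theorem eq_pow_of_two {L : Type*} [Field L] [Finite L] {ρ : L ≃+* L} (h2 : ∀ x, ρ (ρ x) = x) (h1 : ∃ x, ρ x ≠ x)
    {Q : ℕ} (hQ : Nat.card L = Q ^ 2) : ∀ x, ρ x = x ^ Q := by
  classical
  have : Fintype L := Fintype.ofFinite L
  obtain ⟨p, hc⟩ := CharP.exists L
  have hp : Fact p.Prime := ⟨CharP.char_is_prime L p⟩
  letI : Algebra (ZMod p) L := ZMod.algebra L p
  let ρ' : L ≃ₐ[ZMod p] L := AlgEquiv.ofRingEquiv (f := ρ) (fun r => by
    have h3 : (ρ : L →+* L).comp (algebraMap (ZMod p) L) = algebraMap (ZMod p) L := Subsingleton.elim _ _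
    exact congrArg (fun φ : ZMod p →+* L => φ r) h3)
  obtain ⟨⟨i, hi⟩, hi2⟩ := (FiniteField.bijective_frobeniusAlgEquivOfAlgebraic_pow (ZMod p) L).2 ρ'
  set N := finrank (ZMod p) L with hN
  set φ := FiniteField.frobeniusAlgEquivOfAlgebraic (ZMod p) L with hφ
  have hi3 : φ ^ i = ρ' := hi2
  have happ : ∀ x, ρ x = x ^ p ^ i := by
    intro x
    have h3 : ρ x = (φ ^ i) x := by rw [hi3]; rfl
    have h4 : ⇑(φ ^ i) = (⇑φ)^[i] := by
      rw [← AlgEquiv.coe_pow]
    rw [h3, h4, hφ, FiniteField.coe_frobeniusAlgEquivOfAlgebraic_iterate, ZMod.card]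
  have hord : N ∣ 2 * i := by
    rw [hN, ← FiniteField.orderOf_frobeniusAlgEquivOfAlgebraic (ZMod p) L]
    apply orderOf_dvd_of_pow_eq_one
    rw [mul_comm, pow_mul]
    change (φ ^ i) ^ 2 = 1
    rw [hi3, pow_two]
    apply AlgEquiv.ext
    intro x
    exact h2 x
  have hi0 : i ≠ 0 := by
    rintro rfl
    obtain ⟨x, hx⟩ := h1
    apply hx
    rw [happ, pow_zero, pow_one]
  have h2i : 2 * i = N := by
    obtain ⟨k, hk⟩ := hord
    have hk0 : k ≠ 0 := by rintro rfl; omega
    have hk2 : k < 2 := by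
      by_contra hcon
      have : N * 2 ≤ N * k := Nat.mul_le_mul_left _ (by omega)
      omega
    obtain rfl : k = 1 := by omega
    omega
  have hcard : Nat.card L = p ^ N := by
    rw [Module.natCard_eq_pow_finrank (K := ZMod p), Nat.card_eq_fintype_card, ZMod.card]
  have hQp : Q = p ^ i := by
    have h3 : Q ^ 2 = (p ^ i) ^ 2 := by
      rw [← hQ, hcard, ← pow_mul, ← h2i, mul_comm]
    exact Nat.pow_left_injective (n := 2) (by norm_num) h3
  intro x
  rw [hQp]
  exact happ x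

variable {K : Type u} [Field K] {V : Type v} [AddCommGroup V] [Module K V]

variable {A S : Subgroup (Equiv.Perm (R K V))} [Finite K] [Module.Finite K V]

/-- the fixed points of `f` on `A` : at most `n` times those centralizing `E` -/
theorem card_le_mul (h : Fr (SLX K V) A S) {E : Subalgebra K (R K V)} (hE : IsField E)
    (hd : finrank K E = finrank K V) (hSE : ∀ f ∈ S, ∀ X ∈ E, f X ∈ E) {f : Equiv.Perm (R K V)}
    {C : Subgroup (Equiv.Perm (R K V))}
    (hC : ∀ x : (R K V)ˣ, (x : R K V) ∈ E → cj K V x ∈ A → f * cj K V x = cj K V x * f → cj K V x ∈ C) :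
    Nat.card {a // a ∈ A ∧ f * a = a * f} ≤ finrank K V * Nat.card C := by
  classical
  haveI := h.nontriv
  have hfin : Finite (R K V) := finite_R
  let iE : Field E := hE.toField
  have : Finite E := inferInstance
  have hres : ∀ a : {a // a ∈ A ∧ f * a = a * f}, ∃ g : E →ₐ[K] E, ∀ X : E, (g X : R K V) = (a : Equiv.Perm (R K V)) X := by
    rintro ⟨a, ha, -⟩
    obtain ⟨x, -, rfl⟩ := h.AX ha
    have hE' : ∀ X ∈ E, cj K V x X ∈ E := hSE _ (h.AS ha)
    refine ⟨AlgHom.ofLinearMap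
      { toFun := fun X => ⟨cj K V x X, hE' X X.2⟩
        map_add' := fun X Y => Subtype.ext ((cj_mem_RP x).1 X Y)
        map_smul' := fun s X => Subtype.ext (by
          change (x : R K V) * (s • (X : R K V)) * ((x⁻¹ : (R K V)ˣ) : R K V) = s • (cj K V x X)
          rw [mul_smul_comm, smul_mul_assoc, cj_apply]) } ?_ ?_, fun X => rfl⟩
    · apply Subtype.ext
      change (x : R K V) * (1 : R K V) * ((x⁻¹ : (R K V)ˣ) : R K V) = 1
      rw [mul_one, Units.mul_inv]
    · intro X Y
      exact Subtype.ext ((cj_mem_RP x).2 X Y)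
  choose g hg using hres
  have hcard : Nat.card (E →ₐ[K] E) ≤ finrank K V := by
    rw [← hd]
    exact card_algHom_le_finrank K E E
  have : Finite (E →ₐ[K] E) := Finite.of_injective (fun φ : E →ₐ[K] E => (φ : E → E)) DFunLike.coe_injective
  have key : ∀ a b : {a // a ∈ A ∧ f * a = a * f}, g a = g b → (b : Equiv.Perm (R K V))⁻¹ * a ∈ C := by
    intro a b hab
    have h1 : ∀ X ∈ E, (a : Equiv.Perm (R K V)) X = (b : Equiv.Perm (R K V)) X := by
      intro X hX
      have h2 := congrArg (fun φ : E →ₐ[K] E => ((φ ⟨X, hX⟩ : E) : R K V)) hab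
      simp only [hg] at h2
      exact h2
    have h2 : (b : Equiv.Perm (R K V))⁻¹ * a ∈ A := A.mul_mem (A.inv_mem b.2.1) a.2.1
    obtain ⟨x, hx, hxab⟩ := h.AX h2
    have h3 : ∀ X ∈ E, cj K V x X = X := by
      intro X hX
      rw [hxab, Equiv.Perm.mul_apply, h1 X hX]
      exact (b : Equiv.Perm (R K V)).symm_apply_apply X
    have h4 : (x : R K V) ∈ E := mem_of_comm hE hd (fun X hX => fix_one_of_cj.1 (h3 X hX))
    have h5 : f * cj K V x = cj K V x * f := by
      rw [hxab]
      have hb : f * (b : Equiv.Perm (R K V))⁻¹ = (b : Equiv.Perm (R K V))⁻¹ * f := by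
        rw [mul_inv_eq_iff_eq_mul, mul_assoc, b.2.2, inv_mul_cancel_left]
      rw [← mul_assoc, hb, mul_assoc, a.2.2, mul_assoc]
    have h6 := hC x h4 (by rw [hxab]; exact h2) h5
    rw [hxab] at h6
    exact h6
  -- representatives
  have hrep : ∀ φ : Set.range g, ∃ b, g b = (φ : E →ₐ[K] E) := fun φ => φ.2
  choose r hr using hrep
  have hinj : Function.Injective (fun a : {a // a ∈ A ∧ f * a = a * f} =>
      ((g a, ⟨((r ⟨g a, a, rfl⟩ : {a // a ∈ A ∧ f * a = a * f}) : Equiv.Perm (R K V))⁻¹ * a,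
        key _ _ (hr ⟨g a, a, rfl⟩).symm⟩) : (E →ₐ[K] E) × C)) := by
    intro a b hab
    have h1 : g a = g b := congrArg Prod.fst hab
    have h2 := congrArg (fun z : (E →ₐ[K] E) × C => (z.2 : Equiv.Perm (R K V))) hab
    simp only at h2
    have h3 : (⟨g a, a, rfl⟩ : Set.range g) = ⟨g b, b, rfl⟩ := Subtype.ext h1
    rw [h3] at h2
    exact Subtype.ext (mul_left_cancel h2)
  have : Finite C := inferInstance
  calc _ ≤ Nat.card ((E →ₐ[K] E) × C) := Nat.card_le_card_of_injective _ hinj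
    _ = Nat.card (E →ₐ[K] E) * Nat.card C := Nat.card_prod _ _
    _ ≤ _ := Nat.mul_le_mul_right _ hcard

/-- the centraliser of `f` in `A ∩ cj E`, from the torsion of `E^*` -/
theorem card_fix_le (h : Fr (SLX K V) A S) {E : Subalgebra K (R K V)} (hE : IsField E)
    (hd : finrank K E = finrank K V) (hSE : ∀ f ∈ S, ∀ X ∈ E, f X ∈ E) {f : Equiv.Perm (R K V)} {M : ℕ} (hM : 0 < M)
    (hk : ∀ x : (R K V)ˣ, (x : R K V) ∈ E → f * cj K V x = cj K V x * f → x ^ M = 1) :
    Nat.card {a // a ∈ A ∧ f * a = a * f} * (Nat.card K - 1) ≤ finrank K V * M := by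
  classical
  haveI := h.nontriv
  have hfin : Finite (R K V) := finite_R
  let iE : Field E := hE.toField
  have : Finite E := inferInstance
  let ι : Eˣ →* (R K V)ˣ := Units.map (E.val : E →* R K V)
  have hι : Function.Injective ι := Units.map_injective Subtype.val_injective
  let D : Subgroup Eˣ :=
    { carrier := {k | f * cj K V (ι k) = cj K V (ι k) * f}
      one_mem' := by
        change f * cj K V (ι 1) = cj K V (ι 1) * f
        rw [map_one, map_one, mul_one, one_mul]
      mul_mem' := by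
        intro a b ha hb
        change f * cj K V (ι (a * b)) = cj K V (ι (a * b)) * f
        have ha' : f * cj K V (ι a) = cj K V (ι a) * f := ha
        have hb' : f * cj K V (ι b) = cj K V (ι b) * f := hb
        rw [map_mul, map_mul, ← mul_assoc, ha', mul_assoc, hb', mul_assoc]
      inv_mem' := by
        intro a ha
        change f * cj K V (ι a⁻¹) = cj K V (ι a⁻¹) * f
        have ha' : f * cj K V (ι a) = cj K V (ι a) * f := ha
        rw [map_inv, map_inv, mul_inv_eq_iff_eq_mul, mul_assoc, ha', inv_mul_cancel_left] }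
  let θ : D →* Equiv.Perm (R K V) := ((cj K V).comp ι).comp D.subtype
  have h1 : Nat.card θ.ker * Nat.card θ.range = Nat.card D := by
    rw [← Subgroup.index_ker, Subgroup.card_mul_index]
  have hDM : Nat.card D ≤ M := by
    haveI : NeZero M := ⟨hM.ne'⟩
    refine le_trans (Nat.card_le_card_of_injective (fun k : D => (⟨(k : Eˣ), ?_⟩ : rootsOfUnity M E)) ?_)
      (card_rootsOfUnity E M)
    · rw [mem_rootsOfUnity]
      apply hι
      rw [map_pow, map_one]
      exact hk (ι k) (k : Eˣ).1.2 k.2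
    · intro a b hab
      exact Subtype.ext (congrArg (fun z : rootsOfUnity M E => (z : Eˣ)) hab)
  have hker : Nat.card K - 1 ≤ Nat.card θ.ker := by
    rw [← Nat.card_units]
    have hsc : ∀ s : Kˣ, cj K V (ι (Units.map (algebraMap K E : K →* E) s)) = 1 := by
      intro s
      apply Equiv.ext
      intro X
      have h3 : ((ι (Units.map (algebraMap K E : K →* E) s) : (R K V)ˣ) : R K V) = algebraMap K (R K V) s := rfl
      have h4 : (cj K V (ι (Units.map (algebraMap K E : K →* E) s))) X = X :=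
        fix_one_of_cj.2 (by rw [h3]; exact Algebra.commutes _ _)
      rw [h4]
      rfl
    refine Nat.card_le_card_of_injective (fun s : Kˣ => (⟨⟨Units.map (algebraMap K E : K →* E) s, ?_⟩, ?_⟩ : θ.ker)) ?_
    · change f * cj K V (ι _) = cj K V (ι _) * f
      rw [hsc, mul_one, one_mul]
    · rw [MonoidHom.mem_ker]
      exact hsc s
    · intro a b hab
      have h3 : Units.map (algebraMap K E : K →* E) a = Units.map (algebraMap K E : K →* E) b :=
        congrArg (fun z : θ.ker => ((z : D) : Eˣ)) hab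
      exact Units.map_injective (algebraMap K E).injective h3
  have h2 := card_le_mul h hE hd hSE (f := f) (C := θ.range) (by
    intro x hx hxA hfx
    have hx0 : (⟨x, hx⟩ : E) ≠ 0 := by
      intro h0
      have h3 : (x : R K V) = 0 := congrArg Subtype.val h0
      exact x.ne_zero h3
    refine ⟨⟨Units.mk0 ⟨x, hx⟩ hx0, ?_⟩, ?_⟩
    · change f * cj K V (ι (Units.mk0 ⟨x, hx⟩ hx0)) = cj K V (ι (Units.mk0 ⟨x, hx⟩ hx0)) * f
      have h3 : ι (Units.mk0 ⟨x, hx⟩ hx0) = x := Units.ext rfl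
      rw [h3]
      exact hfx
    · have h3 : ι (Units.mk0 ⟨x, hx⟩ hx0) = x := Units.ext rfl
      change cj K V (ι (Units.mk0 ⟨x, hx⟩ hx0)) = cj K V x
      rw [h3])
  calc _ ≤ (finrank K V * Nat.card θ.range) * (Nat.card K - 1) := Nat.mul_le_mul_right _ h2
    _ = finrank K V * ((Nat.card K - 1) * Nat.card θ.range) := by ring
    _ ≤ finrank K V * (Nat.card θ.ker * Nat.card θ.range) := Nat.mul_le_mul_left _ (Nat.mul_le_mul_right _ hker)
    _ ≤ _ := Nat.mul_le_mul_left _ (by rw [h1]; exact hDM)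

/-- the action of `f` on `E` and on the scalars -/
theorem exists_rho (h : Fr (SLX K V) A S) {E : Subalgebra K (R K V)} (hE : IsField E)
    (hd : finrank K E = finrank K V) (hSE : ∀ f ∈ S, ∀ X ∈ E, f X ∈ E) {τ : K ≃+* K} (hτ : ∃ s, τ s ≠ s) {q0 : ℕ}
    (hq : Nat.card K = q0 ^ 2) {f : Equiv.Perm (R K V)} (hf : f ∈ S) (hff : f * f = 1)
    (hσ : ∀ (s : K) X, f (s • X) = τ s • f X) (hmul : ∀ X ∈ E, ∀ Y ∈ E, f (X * Y) = f X * f Y) :
    f 1 = 1 ∧ (∀ s, τ s = s ^ q0) ∧ ∀ X ∈ E, f X = X ^ (q0 ^ finrank K V) := by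
  classical
  haveI := h.nontriv
  have hfin : Finite (R K V) := finite_R
  let iE : Field E := hE.toField
  have : Finite E := inferInstance
  have hadd : ∀ X Y, f (X + Y) = f X + f Y := (h.hS hf).1
  have hffX : ∀ X, f (f X) = X := fun X => by rw [← Equiv.Perm.mul_apply, hff]; rfl
  have hone : f 1 = 1 := by
    calc f 1 = f 1 * 1 := (mul_one _).symm
      _ = f 1 * f (f 1) := by rw [hffX]
      _ = f (1 * f 1) := (hmul _ E.one_mem _ (hSE f hf _ E.one_mem)).symm
      _ = 1 := by rw [one_mul, hffX]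
  have hττ : ∀ s, τ (τ s) = s := by
    intro s
    have h1 := hffX (s • (1 : R K V))
    rw [hσ, hσ, hffX] at h1
    have h2 : (τ (τ s) - s) • (1 : R K V) = 0 := by rw [sub_smul, h1, sub_self]
    rcases smul_eq_zero.1 h2 with h3 | h3
    · exact sub_eq_zero.1 h3
    · exact absurd h3 one_ne_zero
  let ρ : E ≃+* E :=
    { toFun := fun X => ⟨f X, hSE f hf X X.2⟩
      invFun := fun X => ⟨f X, hSE f hf X X.2⟩
      left_inv := fun X => Subtype.ext (hffX X)
      right_inv := fun X => Subtype.ext (hffX X)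
      map_add' := fun X Y => Subtype.ext (hadd X Y)
      map_mul' := fun X Y => Subtype.ext (hmul X X.2 Y Y.2) }
  have hE2 : Nat.card E = (q0 ^ finrank K V) ^ 2 := by
    rw [Module.natCard_eq_pow_finrank (K := K), hd, hq, ← pow_mul, ← pow_mul, mul_comm]
  refine ⟨hone, eq_pow_of_two hττ hτ hq, ?_⟩
  have h1 := eq_pow_of_two (ρ := ρ) (fun X => Subtype.ext (hffX X)) (by
    obtain ⟨s, hs⟩ := hτ
    refine ⟨algebraMap K E s, ?_⟩
    intro h2
    apply hs
    have h3 : f (algebraMap K (R K V) s) = algebraMap K (R K V) s := congrArg Subtype.val h2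
    rw [Algebra.algebraMap_eq_smul_one, hσ, hone] at h3
    have h4 : (τ s - s) • (1 : R K V) = 0 := by rw [sub_smul, h3, sub_self]
    rcases smul_eq_zero.1 h4 with h5 | h5
    · exact sub_eq_zero.1 h5
    · exact absurd h5 one_ne_zero) hE2
  intro X hX
  exact congrArg (fun Z : E => (Z : R K V)) (h1 ⟨X, hX⟩)

theorem two_le {q0 : ℕ} (hq : Nat.card K = q0 ^ 2) : 2 ≤ q0 := by
  have h1 : 1 < Nat.card K := Finite.one_lt_card
  by_contra hcon
  have h2 : q0 ^ 2 ≤ 1 ^ 2 := Nat.pow_le_pow_left (by omega) 2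
  omega

theorem sing_up_field (h : Fr (SLX K V) A S) {E : Subalgebra K (R K V)} (hE : IsField E)
    (hd : finrank K E = finrank K V) (hSE : ∀ f ∈ S, ∀ X ∈ E, f X ∈ E) {τ : K ≃+* K} (hτ : ∃ s, τ s ≠ s) {q0 : ℕ}
    (hq : Nat.card K = q0 ^ 2) {f : Equiv.Perm (R K V)} (hf : f ∈ S) (hff : f * f = 1)
    (hσ : ∀ (s : K) X, f (s • X) = τ s • f X) (hauto : ∀ X Y, f (X * Y) = f X * f Y) :
    Nat.card {a // a ∈ A ∧ f * a = a * f} * (q0 - 1) ≤ finrank K V * (q0 ^ finrank K V - 1) := by
  haveI := h.nontriv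
  obtain ⟨hone, hτ2, hρ⟩ := exists_rho h hE hd hSE hτ hq hf hff hσ (fun X _ Y _ => hauto X Y)
  have hffX : ∀ X, f (f X) = X := fun X => by rw [← Equiv.Perm.mul_apply, hff]; rfl
  have hq2 := two_le hq
  set Q := q0 ^ finrank K V with hQ
  have hQ2 : 2 ≤ Q := hq2.trans (Nat.le_self_pow (by have := h.hn; omega) q0)
  have h1 := card_fix_le h hE hd hSE (f := f) (M := (Q - 1) * (q0 + 1)) (Nat.mul_pos (by omega) (by omega)) (by
    intro x hx hfx
    let y : (R K V)ˣ := ⟨f x, f ((x⁻¹ : (R K V)ˣ) : R K V), by rw [← hauto, Units.mul_inv, hone],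
      by rw [← hauto, Units.inv_mul, hone]⟩
    have hy : ((y : (R K V)ˣ) : R K V) = f x := rfl
    have hyi : ((y⁻¹ : (R K V)ˣ) : R K V) = f ((x⁻¹ : (R K V)ˣ) : R K V) := rfl
    have h2 : f * cj K V x = cj K V y * f := by
      apply Equiv.ext
      intro X
      rw [Equiv.Perm.mul_apply, Equiv.Perm.mul_apply, cj_apply, cj_apply, hy, hyi, hauto, hauto]
    rw [h2] at hfx
    have h3 : cj K V (x⁻¹ * y) = 1 := by
      rw [map_mul, mul_right_cancel hfx, map_inv, inv_mul_cancel]
    obtain ⟨s, hs⟩ := scalar_of_cj_one h3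
    have h4 : f x = s • (x : R K V) := by
      have h5 : (x : R K V) * ((x⁻¹ * y : (R K V)ˣ) : R K V) = (x : R K V) * (s • (1 : R K V)) := by rw [hs]
      rw [Units.val_mul, ← mul_assoc, Units.mul_inv, one_mul, mul_smul_comm, mul_one] at h5
      exact h5
    have h5 : s * τ s = 1 := by
      have h6 := hffX (x : R K V)
      rw [h4, hσ, h4, smul_smul] at h6
      have h7 : (τ s * s - 1) • (x : R K V) = 0 := by rw [sub_smul, h6, one_smul, sub_self]
      rcases smul_eq_zero.1 h7 with h8 | h8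
      · rw [mul_comm]; exact sub_eq_zero.1 h8
      · exact absurd h8 x.ne_zero
    have h6 : (x : R K V) ^ (Q - 1) = s • (1 : R K V) := by
      have h7 := hρ _ hx
      rw [h4] at h7
      have h8 : (x : R K V) * (x : R K V) ^ (Q - 1) = (x : R K V) * (s • (1 : R K V)) := by
        rw [← pow_succ', show Q - 1 + 1 = Q by omega, ← h7, mul_smul_comm, mul_one]
      exact (Units.mul_right_inj x).1 h8
    apply Units.ext
    rw [Units.val_pow_eq_pow_val, Units.val_one, pow_mul, h6, smul_pow, one_pow]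
    rw [hτ2] at h5
    rw [pow_succ', h5, one_smul])
  have h2 : Nat.card K - 1 = (q0 - 1) * (q0 + 1) := by
    rw [hq]
    obtain ⟨k, rfl⟩ := Nat.exists_eq_add_of_le' hq2
    have e1 : (k + 2) ^ 2 = (k + 1) * (k + 3) + 1 := by ring
    have e2 : (k + 2 - 1) * (k + 2 + 1) = (k + 1) * (k + 3) := rfl
    omega
  rw [h2] at h1
  apply Nat.le_of_mul_le_mul_right (c := q0 + 1) _ (by omega)
  calc _ = Nat.card {a // a ∈ A ∧ f * a = a * f} * ((q0 - 1) * (q0 + 1)) := by ring
    _ ≤ _ := h1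
    _ = _ := by ring

theorem sing_up_gf (h : Fr (SLX K V) A S) {E : Subalgebra K (R K V)} (hE : IsField E)
    (hd : finrank K E = finrank K V) (hSE : ∀ f ∈ S, ∀ X ∈ E, f X ∈ E) {τ : K ≃+* K} (hτ : ∃ s, τ s ≠ s) {q0 : ℕ}
    (hq : Nat.card K = q0 ^ 2) {f : Equiv.Perm (R K V)} (hf : f ∈ S) (hff : f * f = 1)
    (hσ : ∀ (s : K) X, f (s • X) = τ s • f X) (hanti : ∀ X Y, f (X * Y) = f Y * f X) :
    Nat.card {a // a ∈ A ∧ f * a = a * f} * (q0 + 1) ≤ finrank K V * (q0 ^ finrank K V + 1) := by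
  haveI := h.nontriv
  obtain ⟨hone, hτ2, hρ⟩ := exists_rho h hE hd hSE hτ hq hf hff hσ (fun X hX Y hY => by
    have h2 : X * Y = Y * X := congrArg Subtype.val (hE.mul_comm ⟨X, hX⟩ ⟨Y, hY⟩)
    rw [h2, hanti])
  have hffX : ∀ X, f (f X) = X := fun X => by rw [← Equiv.Perm.mul_apply, hff]; rfl
  have hq2 := two_le hq
  set Q := q0 ^ finrank K V with hQ
  have h1 := card_fix_le h hE hd hSE (f := f) (M := (Q + 1) * (q0 - 1)) (Nat.mul_pos (by omega) (by omega)) (by
    intro x hx hfx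
    let y : (R K V)ˣ := ⟨f x, f ((x⁻¹ : (R K V)ˣ) : R K V), by rw [← hanti, Units.inv_mul, hone],
      by rw [← hanti, Units.mul_inv, hone]⟩
    have hy : ((y : (R K V)ˣ) : R K V) = f x := rfl
    have hyi : ((y⁻¹ : (R K V)ˣ) : R K V) = f ((x⁻¹ : (R K V)ˣ) : R K V) := rfl
    have h2 : f * cj K V x = cj K V y⁻¹ * f := by
      apply Equiv.ext
      intro X
      rw [Equiv.Perm.mul_apply, Equiv.Perm.mul_apply, cj_apply, cj_apply, inv_inv, hy, hyi, hanti, hanti, mul_assoc]
    rw [h2] at hfx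
    have h3 : cj K V (y * x) = 1 := by
      rw [map_mul, ← mul_right_cancel hfx, ← map_mul, mul_inv_cancel, map_one]
    obtain ⟨s, hs⟩ := scalar_of_cj_one h3
    rw [Units.val_mul, hy] at hs
    have h5 : τ s = s := by
      have h6 : f (f x * (x : R K V)) = f x * (x : R K V) := by rw [hanti, hffX]
      rw [hs, hσ, hone] at h6
      have h7 : (τ s - s) • (1 : R K V) = 0 := by rw [sub_smul, h6, sub_self]
      rcases smul_eq_zero.1 h7 with h8 | h8
      · exact sub_eq_zero.1 h8
      · exact absurd h8 one_ne_zero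
    have hs0 : s ≠ 0 := by
      rintro rfl
      rw [zero_smul] at hs
      have h6 : ((y * x : (R K V)ˣ) : R K V) = 0 := hs
      exact (y * x).ne_zero h6
    have h6 : (x : R K V) ^ (Q + 1) = s • (1 : R K V) := by
      rw [pow_succ, ← hρ _ hx, hs]
    have h7 : s ^ (q0 - 1) = 1 := by
      rw [hτ2] at h5
      have h8 : s * s ^ (q0 - 1) = s * 1 := by
        rw [← pow_succ', show q0 - 1 + 1 = q0 by omega, h5, mul_one]
      exact mul_left_cancel₀ hs0 h8
    apply Units.ext
    rw [Units.val_pow_eq_pow_val, Units.val_one, pow_mul, h6, smul_pow, one_pow, h7, one_smul])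
  have h2 : Nat.card K - 1 = (q0 + 1) * (q0 - 1) := by
    rw [hq]
    obtain ⟨k, rfl⟩ := Nat.exists_eq_add_of_le' hq2
    have e1 : (k + 2) ^ 2 = (k + 3) * (k + 1) + 1 := by ring
    have e2 : (k + 2 + 1) * (k + 2 - 1) = (k + 3) * (k + 1) := rfl
    omega
  rw [h2] at h1
  apply Nat.le_of_mul_le_mul_right (c := q0 - 1) _ (by omega)
  calc _ = Nat.card {a // a ∈ A ∧ f * a = a * f} * ((q0 + 1) * (q0 - 1)) := by ring
    _ ≤ _ := h1
    _ = _ := by ring

end Cfsg.Agent.H5.IFO
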